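import Groth.Agent.Sga4h.BidGlobSky
import Groth.Agent.EtpbcA.ArtinSupp
import Groth.Agent.Etrest.ModAb

/-!
# The support of a sheaf of modules and its stalks `stk`

`mem_supp_ab_iff`: `x` is in the support of the abelian sheaf underlying `F : Mod Λ X` iff `stk Λ x F ≠ 0`.
-/

set_option autoImplicit false
universe u

open CategoryTheory CategoryTheory.Limits AlgebraicGeometry Opposite

namespace Groth.Agent.Sga2lef.H253.StkSupp

open Groth.Agent.Etrest.ModAb Groth.Agent.EtpbcA.Artin Groth.Agent.Sga4h.EtPts Groth.Agent.Sga4h.BidGlobSky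

variable {Λ : Type (u + 1)} [CommRing Λ] {X : Scheme.{u}} (F : EtModW.Mod Λ X)

theorem isZero_stk_iff (x : X) : IsZero ((stk Λ x).obj F) ↔ VanAt ((ab Λ X).obj F) x := by
  constructor
  · intro h U s v hv
    obtain ⟨t, ht⟩ := exists_pt v hv
    have h0 : germ F t s = germ F t 0 := @Subsingleton.elim _ (ModuleCat.subsingleton_of_isZero h) _ _
    obtain ⟨V, g, t', ht', e⟩ := (germ_eq_iff t s 0).1 h0
    refine ⟨V, g, ⟨pt t', ?_⟩, ?_⟩
    · rw [← pt_map, ht', ht]
    · exact e.trans (map_zero _)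
  · intro h
    refine @ModuleCat.isZero_of_subsingleton _ _ _ ⟨fun a b => ?_⟩
    have key : ∀ a : ToType ((stk Λ x).obj F), a = 0 := by
      intro a
      obtain ⟨U, t, s, rfl⟩ := exists_germ_eq a
      obtain ⟨V, g, ⟨w, hw⟩, e⟩ := h U s (pt t) (hom_pt t)
      obtain ⟨t', ht', -⟩ := exists_lift g t w hw
      have e' : F.obj.map g.op s = F.obj.map g.op 0 := e.trans (map_zero _).symm
      rw [← germ_zero (G := F) t]
      exact (germ_eq_iff t s 0).2 ⟨V, g, t', ht', e'⟩
    exact (key a).trans (key b).symm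

/-- The support of the underlying abelian sheaf is the set of points with non-zero stalk `stk`. -/
theorem mem_supp_ab_iff (x : X) : x ∈ EtPBC.supp ((ab Λ X).obj F) ↔ ¬ IsZero ((stk Λ x).obj F) := by
  rw [isZero_stk_iff, ← not_mem_supp_iff, not_not]

end Groth.Agent.Sga2lef.H253.StkSupp
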