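import Groth.Agent.Sga2lef.H253.ArtinVanOf
import Groth.Agent.Sga2lef.H253.StkSupp
import Groth.Agent.Etbc.H217.SuppDim
import Groth.Agent.CycB.RelDim2
import Groth.Agent.EtpbcA.ArtinQK
import Groth.Agent.EtpbcA.ArtinMain

/-!
# Artin vanishing for complexes and for `Ext^p(F, Λ)` over an algebraically closed field

`X` affine of finite type over an algebraically closed field `k`, `Λ` killed by `m > 0`.
* `hom_eq_zero`: `K ∈ D⁺(Mod(X, Λ))` with `dim supp H^b(K) ≤ s - b` for all `b`; then `Hom(Λ_X, K[p]) = 0`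
  for `p > s`;
* `subsingleton_ext`: `F` a sheaf of `Λ`-modules with `dim supp H^b(RHom(F, Λ)) ≤ s - b` for all `b`; then
  `Ext^p(F, Λ) = 0` for `p > s`.
-/

set_option autoImplicit false
universe u

open CategoryTheory CategoryTheory.Limits CategoryTheory.Abelian AlgebraicGeometry Opposite

namespace Groth.Agent.Sga2lef.H253.ArtinVan

open Groth.Agent.Etrest.ModAb Groth.Agent.Sga4B.DualShape Groth.Agent.EtpbcA.Artin
open Groth.Agent.Sga2lef.H253.ArtinVanK Groth.Agent.Sga2lef.H253.ArtinVanOf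
open Groth.Agent.Sga2lef.H253.StkSupp Groth.Agent.Sga4h.EtPts
open scoped Groth.Agent.Etcore.EtInst

/-- From dimensions of closures to transcendence degrees. -/
lemma exists_resTrdegLE {k : Type u} [Field k] {X : Scheme.{u}} (f : X ⟶ Spec (CommRingCat.of k))
    [LocallyOfFiniteType f] {s b : ℤ} (u : X)
    (h : ∀ d : ℕ, topologicalKrullDim (closure ({u} : Set X)) = d → (d : ℤ) ≤ s - b) :
    ∃ c : ℕ, b + c + (0 : ℕ) ≤ s ∧ EtPBC.ResTrdegLE f u c := by
  obtain ⟨n, -, hn⟩ := CycB.RelDim.exists_dim_closure f (isAffineOpen_top _)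
    ((Scheme.ΓSpecIso (CommRingCat.of k)).commRingCatIsoToRingEquiv.toMulEquiv.isField
      (Field.toIsField _)) u
  have h1 := h n hn
  exact ⟨n, by push_cast; lia, Etbc.H217.SuppDim.resTrdegLE_of_closure_dim k f u n hn.le⟩

theorem qk (k : Type u) [Field k] [IsAlgClosed k] (a : ℕ) : QK k 0 a := QK_of_PK k 0 a (PA_all a k)

section

attribute [local instance 5000] CategoryTheory.Abelian.toPreadditive
  CategoryTheory.Preadditive.preadditiveHasZeroMorphisms
attribute [local instance] HasDerivedCategory.standard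

open Groth.Agent.Sga4h.BidRed538Main DerivedCategory

variable {k : Type u} [Field k] [IsAlgClosed k] {X : Scheme.{u}} [IsAffine X]
  (f : X ⟶ Spec (CommRingCat.of k)) [LocallyOfFiniteType f]
  (Λ : Type (u + 1)) [CommRing Λ] {m : ℕ} (hm : 0 < m) (hΛ : (m : Λ) = 0)

include f hm hΛ in
/-- **Artin vanishing** for an object of `D⁺(Mod(X, Λ))`. -/
theorem hom_eq_zero (K : DerivedCategory (EtModW.Mod Λ X)) (a s : ℤ) [K.IsGE a]
    (hsupp : ∀ (b : ℤ) (u : X), ¬ IsZero ((stk Λ u).obj ((homologyFunctor _ b).obj K)) →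
      ∀ d : ℕ, topologicalKrullDim (closure ({u} : Set X)) = d → (d : ℤ) ≤ s - b) (p : ℤ) (hp : s < p)
    (g : (singleFunctor _ 0).obj (EtModW.constMod Λ X Λ) ⟶ K⟦p⟧) : g = 0 :=
  hom_eq_zero_of f 0 (qk k) Λ hm hΛ K a s
    (fun b u hu => exists_resTrdegLE f u (hsupp b u ((mem_supp_ab_iff _ u).1 hu))) p hp g

include f hm hΛ in
/-- **Vanishing of `Ext^p(F, Λ)`**: `dim supp H^b(RHom(F, Λ)) ≤ s - b` for all `b` implies `Ext^p(F, Λ) = 0`
for `p > s`. -/
theorem subsingleton_ext (F : EtModW.Mod Λ X) (s : ℤ)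
    (hsupp : ∀ (b : ℤ) (u : X), ¬ IsZero ((stk Λ u).obj
        (((stdDual Λ X).D ((CochainComplex.singleFunctor _ 0).obj F)).homology b)) →
      ∀ d : ℕ, topologicalKrullDim (closure ({u} : Set X)) = d → (d : ℤ) ≤ s - b) (p : ℕ) (hp : s < p) :
    Subsingleton (Ext.{u + 1} F (EtModW.constMod Λ X Λ) p) :=
  ext_eq_zero_of f 0 (qk k) Λ hm hΛ F s
    (fun b u hu => exists_resTrdegLE f u (hsupp b u (fun h0 => (mem_supp_ab_iff _ u).1 hu
      (h0.of_iso ((stk Λ u).mapIso ((homologyFunctorFactors _ b).app _)))))) p hp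

end

end Groth.Agent.Sga2lef.H253.ArtinVan
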