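import Groth.Agent.Sga2lef.H253.VanD
import Groth.Agent.Sga4h.BidFin
import Groth.Agent.EtpbcA.ArtinSupp
import Groth.Agent.EtpbcA.ArtinDefs

/-!
# Artin vanishing for complexes: the formal part

`X` affine of finite type over a field `k`, `Λ` killed by `m > 0`, `K` an object of `D⁺(Mod(X, Λ))`. If
`b + trdeg κ(x) + cd(k) ≤ s` for all `b` and all `x ∈ supp H^b(K)` then `Hom(Λ_X, K[p]) = 0` for `p > s`
(`hom_eq_zero_of`). The Artin vanishing theorem is a hypothesis here.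
-/

set_option autoImplicit false
universe u

open CategoryTheory CategoryTheory.Limits CategoryTheory.Abelian AlgebraicGeometry Opposite

namespace Groth.Agent.Sga2lef.H253.ArtinVanK

open Groth.Agent.Etrest.ModAb Groth.Agent.Sga4B.DualShape Groth.Agent.EtpbcA.Artin
open scoped Groth.Agent.Etcore.EtInst

/-- A sheaf of modules with zero underlying abelian sheaf is zero. -/
lemma isZero_of_ab {Λ : Type (u + 1)} [CommRing Λ] {X : Scheme.{u}} {F : EtModW.Mod Λ X}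
    (h : IsZero ((ab Λ X).obj F)) : IsZero F := by
  rw [IsZero.iff_id_eq_zero] at h ⊢
  apply (ab Λ X).map_injective
  rw [CategoryTheory.Functor.map_id, h, CategoryTheory.Functor.map_zero]

section

variable {k : Type u} [Field k] {X : Scheme.{u}} [IsAffine X] (f : X ⟶ Spec (CommRingCat.of k))
  [LocallyOfFiniteType f] (e : ℕ) (hQ : ∀ a : ℕ, QK k e a)
  (Λ : Type (u + 1)) [CommRing Λ] {m : ℕ} (hm : 0 < m) (hΛ : (m : Λ) = 0)

include f hQ hm hΛ in
/-- One sheaf. -/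
theorem subsingleton_ext (F : EtModW.Mod Λ X) (i s : ℤ)
    (hsupp : ∀ x ∈ EtPBC.supp ((ab Λ X).obj F), ∃ c : ℕ, i + c + e ≤ s ∧ EtPBC.ResTrdegLE f x c)
    (q : ℕ) (hq : s < i + q) : Subsingleton (Ext.{u + 1} (EtModW.constMod Λ X Λ) F q) := by
  by_cases h0 : EtPBC.supp ((ab Λ X).obj F) = ∅
  · have hz : IsZero F := isZero_of_ab ((isZero_iff _).2 h0)
    have h8 : ∀ x : Ext.{u + 1} (EtModW.constMod Λ X Λ) F q, x = 0 := fun x => by
      rw [← Ext.comp_mk₀_id x, hz.eq_of_src (𝟙 _) 0, Ext.mk₀_zero, Ext.comp_zero]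
    exact ⟨fun x y => (h8 x).trans (h8 y).symm⟩
  · obtain ⟨x₀, hx₀⟩ := Set.nonempty_iff_ne_empty.2 h0
    obtain ⟨c₀, hc₀, -⟩ := hsupp x₀ hx₀
    obtain ⟨a, ha⟩ : ∃ a : ℕ, (a : ℤ) = s - i - e := ⟨(s - i - e).toNat, by lia⟩
    have h1 : ∀ x ∈ EtPBC.supp ((ab Λ X).obj F), EtPBC.ResTrdegLE f x a := by
      intro x hx
      obtain ⟨c, hc, φ, h1, h2⟩ := hsupp x hx
      exact ⟨φ, h1, h2.trans (by exact_mod_cast (by lia : c ≤ a))⟩
    have h2 := hQ a X f ((ab Λ X).obj F) (Sga4B.JFComp.isTorsion_of_killedBy hm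
      (Sga4h.BidFin.killedBy_ab hΛ F)) h1 q (by lia)
    exact (Sga4h.BidFin.extConstEquiv Λ F q).injective.subsingleton

attribute [local instance] HasDerivedCategory.standard

include f hQ hm hΛ in
/-- **Artin vanishing** for an object of `D⁺(Mod(X, Λ))`. -/
theorem hom_eq_zero_of (K : DerivedCategory (EtModW.Mod Λ X)) (a s : ℤ) [K.IsGE a]
    (hsupp : ∀ (b : ℤ), ∀ x ∈ EtPBC.supp ((ab Λ X).obj ((DerivedCategory.homologyFunctor _ b).obj K)),
      ∃ c : ℕ, b + c + e ≤ s ∧ EtPBC.ResTrdegLE f x c) (p : ℤ) (hp : s < p)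
    (g : (DerivedCategory.singleFunctor _ 0).obj (EtModW.constMod Λ X Λ) ⟶ K⟦p⟧) : g = 0 :=
  VanD.van_of_isGE (EtModW.constMod Λ X Λ) s K a
    (fun i q hiq => subsingleton_ext f e hQ Λ hm hΛ _ i s (hsupp i) q hiq) p hp g

end

end Groth.Agent.Sga2lef.H253.ArtinVanK
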