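import Groth.Agent.Sga2lef.H253.ArtinVanK
import Groth.Agent.Sga4h.BidGlobU
import Groth.Agent.Sga4h.BidRed538Main
import Groth.Agent.Sga4h.BidBddEt
import Groth.Agent.Sga4h.TensorUnit

/-!
# Artin vanishing for `RHom(F, Λ)`: the formal part

`X` affine of finite type over a field `k`, `Λ` killed by `m > 0`, `F` a sheaf of `Λ`-modules. If
`b + trdeg κ(x) + cd(k) ≤ s` for all `b` and all `x ∈ supp H^b(D F)`, `D F = RHom(F, Λ)`, then
`Ext^p(F, Λ) = 0` for `p > s` (`ext_eq_zero_of`). The Artin vanishing theorem is a hypothesis here.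
-/

set_option autoImplicit false
universe u

open CategoryTheory CategoryTheory.Limits CategoryTheory.Abelian AlgebraicGeometry Opposite

namespace Groth.Agent.Sga2lef.H253.ArtinVanOf

open Groth.Agent.Etrest.ModAb Groth.Agent.Sga4B.DualShape Groth.Agent.EtpbcA.Artin
open Groth.Agent.Sga2lef.H253.ArtinVanK
open scoped Groth.Agent.Etcore.EtInst

section Dual

attribute [local instance 5000] CategoryTheory.Abelian.toPreadditive
  CategoryTheory.Preadditive.preadditiveHasZeroMorphisms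
attribute [local instance] HasDerivedCategory.standard

open scoped Groth.Agent.Sga4h.ModInst
open Groth.Agent.Sga4h.DualEt Groth.Agent.Sga4h.Refl Groth.Agent.Sga4h.BidRed538Main DerivedCategory

/-- `RHom(F, Λ)` is cohomologically in degrees `≥ 0` for a sheaf `F`. -/
theorem isGE_D (Λ : Type (u + 1)) [CommRing Λ] {X : Scheme.{u}} (F : EtModW.Mod Λ X) :
    (Q.obj ((stdDual Λ X).D ((CochainComplex.singleFunctor _ 0).obj F))).IsGE 0 := by
  have h : (Q.obj ((CochainComplex.singleFunctor (EtModW.Mod Λ X) 0).obj F)).IsLE 0 := by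
    rw [isLE_Q_obj_iff]
    infer_instance
  have h2 := Sga4h.BidBddEt.isGE_D (stdJ Λ X) (isKInjective_stdJ Λ X) (injective_stdJ Λ X)
    (EtModW.constMod Λ X Λ) (asIso (Q.map (stdι Λ X))).symm
    ((CochainComplex.singleFunctor (EtModW.Mod Λ X) 0).obj F) 0 h
  rw [neg_zero] at h2
  exact h2

/-- `Hom_D(Λ_X, D F[p]) = Ext^p(F, Λ_X)`. -/
theorem nonempty_extEquiv (Λ : Type (u + 1)) [CommRing Λ] {X : Scheme.{u}} (F : EtModW.Mod Λ X) (p : ℕ) :
    Nonempty (((singleFunctor _ 0).obj (EtModW.constMod Λ X Λ) ⟶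
        (Q.obj ((stdDual Λ X).D ((CochainComplex.singleFunctor _ 0).obj F)))⟦(p : ℤ)⟧) ≃
      Ext.{u + 1} F (EtModW.constMod Λ X Λ) p) := by
  obtain ⟨e⟩ := Sga4h.BidGlobU.nonempty_homUnit (stdDual Λ X) (Sga4h.TensorUnit.tensorUnitRight Λ X)
    (stdι Λ X) (quasiIso_stdι Λ X) ((CochainComplex.singleFunctor _ 0).obj F) p
  exact ⟨e.trans ((Iso.homCongr ((singleFunctorIsoCompQ _ 0).symm.app F) (Iso.refl _)).trans
    Ext.homEquiv.symm)⟩

variable {k : Type u} [Field k] {X : Scheme.{u}} [IsAffine X] (f : X ⟶ Spec (CommRingCat.of k))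
  [LocallyOfFiniteType f] (e : ℕ) (hQ : ∀ a : ℕ, QK k e a)
  (Λ : Type (u + 1)) [CommRing Λ] {m : ℕ} (hm : 0 < m) (hΛ : (m : Λ) = 0)

include f hQ hm hΛ in
/-- **Vanishing of `Ext^p(F, Λ)`** from the supports of the sheaves `Ext^b(F, Λ) = H^b(D F)`. -/
theorem ext_eq_zero_of (F : EtModW.Mod Λ X) (s : ℤ)
    (hsupp : ∀ (b : ℤ), ∀ x ∈ EtPBC.supp ((ab Λ X).obj ((homologyFunctor _ b).obj
      (Q.obj ((stdDual Λ X).D ((CochainComplex.singleFunctor _ 0).obj F))))),
      ∃ c : ℕ, b + c + e ≤ s ∧ EtPBC.ResTrdegLE f x c) (p : ℕ) (hp : s < p) :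
    Subsingleton (Ext.{u + 1} F (EtModW.constMod Λ X Λ) p) := by
  have h := isGE_D Λ F
  obtain ⟨e'⟩ := nonempty_extEquiv Λ F p
  have h1 : Subsingleton ((singleFunctor _ 0).obj (EtModW.constMod Λ X Λ) ⟶
        (Q.obj ((stdDual Λ X).D ((CochainComplex.singleFunctor _ 0).obj F)))⟦(p : ℤ)⟧) :=
    ⟨fun g g' => (hom_eq_zero_of f e hQ Λ hm hΛ _ 0 s hsupp p hp g).trans
      (hom_eq_zero_of f e hQ Λ hm hΛ _ 0 s hsupp p hp g').symm⟩
  exact e'.symm.injective.subsingleton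

end Dual

end Groth.Agent.Sga2lef.H253.ArtinVanOf
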