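import Groth.Agent.LoccohB.Devissage
import Mathlib.Algebra.Homology.DerivedCategory.Ext.ExactSequences

/-!
# Vanishing of `Hom(Z, X[p])` from the cohomology objects of `X`

`X` an object of the derived category of an abelian category `C`, bounded below, `Z : C`. If
`Ext^q(Z, H^i X) = 0` whenever `i + q > s`, then `Hom(Z, X[p]) = 0` for `p > s`.
-/

set_option autoImplicit false
universe w w' v u

open CategoryTheory CategoryTheory.Limits CategoryTheory.Abelian

namespace Groth.Agent.Sga2lef.H253.VanD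

open DerivedCategory Pretriangulated

variable {C : Type u} [Category.{v} C] [Abelian C] [HasDerivedCategory.{w} C]

/-- `Hom(Z, X[p]) = 0` for `p > s`. -/
def Van (Z : DerivedCategory C) (s : ℤ) : ObjectProperty (DerivedCategory C) :=
  fun X => ∀ p : ℤ, s < p → ∀ f : Z ⟶ X⟦p⟧, f = 0

instance (Z : DerivedCategory C) (s : ℤ) : (Van Z s).IsClosedUnderIsomorphisms where
  of_iso e h p hp f := by
    have h1 := h p hp (f ≫ e.inv⟦p⟧')
    rwa [← cancel_mono (e.inv⟦p⟧'), zero_comp]

lemma van_ext (Z : DerivedCategory C) (s : ℤ) (T : Triangle (DerivedCategory C))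
    (hT : T ∈ distTriang _) (h1 : Van Z s T.obj₁) (h3 : Van Z s T.obj₃) : Van Z s T.obj₂ := by
  intro p hp f
  have hT' := Triangle.shift_distinguished T hT p
  obtain ⟨y, hy⟩ := Triangle.coyoneda_exact₂ _ hT' (X := Z) f (h3 p hp _)
  have h0 : y = 0 := h1 p hp y
  rw [hy, h0]
  exact zero_comp

lemma van_of_isZero (Z : DerivedCategory C) (s : ℤ) (X : DerivedCategory C) (hX : IsZero X) :
    Van Z s X :=
  fun p _ _ => ((shiftFunctor (DerivedCategory C) p).map_isZero hX).eq_of_tgt _ _

lemma van_shift {Z X : DerivedCategory C} {s : ℤ} (n : ℤ) (h : Van Z (s + n) X) :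
    Van Z s (X⟦n⟧) := by
  intro p hp f
  have h1 := h (n + p) (by lia) (f ≫ ((shiftFunctorAdd (DerivedCategory C) n p).app X).inv)
  rwa [← cancel_mono ((shiftFunctorAdd (DerivedCategory C) n p).app X).inv, zero_comp]

lemma van_single [HasExt.{w'} C] {Z F : C} (s n : ℤ)
    (h : ∀ q : ℕ, s < n + q → Subsingleton (Ext.{w'} Z F q)) :
    Van ((singleFunctor C 0).obj Z) s ((singleFunctor C n).obj F) := by
  have h0 : Van ((singleFunctor C 0).obj Z) (s - n) ((singleFunctor C 0).obj F) := by
    intro q hq f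
    obtain ⟨m, rfl⟩ | hq' : (∃ m : ℕ, q = m) ∨ q < 0 := by
      by_cases hq : q < 0
      · exact Or.inr hq
      · exact Or.inl ⟨q.toNat, by lia⟩
    · have := h m (by lia)
      have h2 := (Ext.homEquiv (X := Z) (Y := F) (n := m)).symm.injective.subsingleton
      exact Subsingleton.elim (α := (singleFunctor C 0).obj Z ⟶ ((singleFunctor C 0).obj F)⟦(m : ℤ)⟧) _ _
    · have : (((singleFunctor C 0).obj F)⟦q⟧).IsGE (-q) :=
        (TStructure.t : Triangulated.TStructure (DerivedCategory C)).isGE_shift _ 0 q (-q) (by lia)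
      exact (TStructure.t : Triangulated.TStructure (DerivedCategory C)).zero_of_isLE_of_isGE f 0 (-q)
        (by lia) inferInstance this
  exact (Van _ s).prop_of_iso
    (((singleFunctors C).shiftIso (-n) n 0 (by lia)).app F) (van_shift (-n) (by simpa [sub_eq_add_neg] using h0))

/-- Bounded case. -/
theorem van_of_bounded [HasExt.{w'} C] (Z : C) (s : ℤ) (X : DerivedCategory C) (a b : ℤ) [X.IsGE a]
    [X.IsLE b]
    (h : ∀ (i : ℤ) (q : ℕ), s < i + q → Subsingleton (Ext.{w'} Z ((homologyFunctor C i).obj X) q)) :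
    Van ((singleFunctor C 0).obj Z) s X :=
  LoccohB.Devissage.devissage (Van _ s) (van_of_isZero _ s) (van_ext _ s) X a b
    (fun i => van_single s i (h i))

/-- **Vanishing** for objects bounded below. -/
theorem van_of_isGE [HasExt.{w'} C] (Z : C) (s : ℤ) (X : DerivedCategory C) (a : ℤ) [X.IsGE a]
    (h : ∀ (i : ℤ) (q : ℕ), s < i + q → Subsingleton (Ext.{w'} Z ((homologyFunctor C i).obj X) q)) :
    Van ((singleFunctor C 0).obj Z) s X := by
  intro p hp f
  obtain ⟨T, hT, rfl, h1, h3, hi1, -⟩ := LoccohB.Devissage.exists_trunc X p (p + 1) rfl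
  have hT' := Triangle.shift_distinguished T hT p
  have h4 : (T.obj₃⟦p⟧).IsGE 1 :=
    (TStructure.t : Triangulated.TStructure (DerivedCategory C)).isGE_shift _ (p + 1) p 1 (by lia)
  have h5 : ∀ g : (singleFunctor C 0).obj Z ⟶ T.obj₃⟦p⟧, g = 0 := fun g =>
    (TStructure.t : Triangulated.TStructure (DerivedCategory C)).zero_of_isLE_of_isGE g 0 1
      (by lia) inferInstance h4
  obtain ⟨y, hy⟩ := Triangle.coyoneda_exact₂ _ hT' f (h5 _)
  have hGE : T.obj₁.IsGE a := by
    rw [isGE_iff]
    intro i hi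
    by_cases hi' : i ≤ p
    · have := hi1 i hi'
      exact (T.obj₂.isZero_of_isGE a i hi).of_iso (asIso ((homologyFunctor C i).map T.mor₁))
    · exact T.obj₁.isZero_of_isLE p i (by lia)
  have h6 : Van ((singleFunctor C 0).obj Z) s T.obj₁ := by
    refine van_of_bounded Z s T.obj₁ a p (fun i q hiq => ?_)
    by_cases hi' : i ≤ p
    · have := hi1 i hi'
      have h7 := h i q hiq
      refine ⟨fun x y => ?_⟩
      have h8 : ∀ x : Ext.{w'} Z ((homologyFunctor C i).obj T.obj₁) q, x = 0 := fun x => by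
        have h9 : x.comp (Ext.mk₀ ((homologyFunctor C i).map T.mor₁)) (add_zero q) = 0 :=
          Subsingleton.elim _ _
        have h10 : (x.comp (Ext.mk₀ ((homologyFunctor C i).map T.mor₁)) (add_zero q)).comp
            (Ext.mk₀ (inv ((homologyFunctor C i).map T.mor₁))) (add_zero q) = x := by
          rw [Ext.comp_assoc_of_third_deg_zero, Ext.mk₀_comp_mk₀, IsIso.hom_inv_id, Ext.comp_mk₀_id]
        rw [← h10, h9, Ext.zero_comp]
      rw [h8 x, h8 y]
    · have hz : IsZero ((homologyFunctor C i).obj T.obj₁) := T.obj₁.isZero_of_isLE p i (by lia)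
      exact ⟨fun x y => by
        have h8 : ∀ x : Ext.{w'} Z ((homologyFunctor C i).obj T.obj₁) q, x = 0 := fun x => by
          rw [← Ext.comp_mk₀_id x, hz.eq_of_src (𝟙 _) 0, Ext.mk₀_zero, Ext.comp_zero]
        rw [h8 x, h8 y]⟩
  have h0 : y = 0 := h6 p hp y
  rw [hy, h0]
  exact zero_comp

end Groth.Agent.Sga2lef.H253.VanD
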